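import Cfsg.Agent.TypeM.FactsLy
import Cfsg.Agent.H483.HT.V1
import Cfsg.Agent.H720.HT.DD
import Cfsg.Agent.H316.HT.Defs

/-!
# S4933, the row `(Ly, 2)` (helper62)

`C(t) / ⟨t⟩ ≃ A_11`, and `A_11` has a `2`-subgroup which is not metabelian.
-/

set_option autoImplicit false

namespace Cfsg.Agent.H62.HT

open Cfsg Subgroup Cfsg.Agent.H316.HT Cfsg.Agent.H483.HT Cfsg.Agent.H720.HT
open scoped commutatorElement

/-- from `DD` to `NV` -/
theorem nv_of_dd {p : ℕ} {G : Type*} [Group G] (h : DD p G) : NV p G := by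
  obtain ⟨Q, hQ, hne⟩ := h
  refine ⟨Q, hQ, ?_⟩
  by_contra hcon
  push Not at hcon
  apply hne
  rw [Subgroup.commutator_eq_bot_iff_le_centralizer, Subgroup.commutator_le]
  intro x hx y hy
  have h1 : ⁅Q, Q⁆ ≤ Subgroup.centralizer {⁅x, y⁆} := by
    rw [Subgroup.commutator_le]
    intro z hz w hw
    rw [Subgroup.mem_centralizer_singleton_iff]
    have h2 := commutatorElement_eq_one_iff_mul_comm.1 (hcon x hx y hy z hz w hw)
    exact h2.symm
  rw [Subgroup.mem_centralizer_iff]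
  intro g hg
  have h2 := h1 hg
  rw [Subgroup.mem_centralizer_singleton_iff] at h2
  exact h2

/-- the row of a group with `NV` -/
theorem row_of_nv {p : ℕ} [hp : Fact p.Prime] {S : Type*} [Group S] (h : NV p S) : Row p S := by
  intro A _ _ N _ ⟨e⟩ _ M _ P a ha hcd
  exact ((h.congr e.symm).of_subgroup.vacuous' P ha hcd.1 hcd.2).elim

/-- the Lyons group -/
theorem nv_ly {S : Type*} [Group S] (h : Spor.IsoLy S) : NV 2 S := by
  obtain ⟨e⟩ := h
  have : Fact (Nat.Prime 2) := ⟨Nat.prime_two⟩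
  have hfin : Finite Cfsg.Spor.Ly := Cfsg.Agent.Ly.Setup.finite_ly
  obtain ⟨-, ⟨f⟩, -⟩ := Cfsg.Agent.TypeM.FactsLy.isNonsplit_ly
  refine NV.congr e.symm ?_
  exact NV.of_section _ (f.toMonoidHom.comp (QuotientGroup.mk' _)) (f.surjective.comp (QuotientGroup.mk'_surjective _))
    (nv_of_dd (dd_alt (by norm_num)))

/-- **the row `(Ly, 2)` of S4933** -/
theorem row2_ly {S : Type} [Group S] (h : Spor.IsoLy S) : Row 2 S := by
  have : Fact (Nat.Prime 2) := ⟨Nat.prime_two⟩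
  exact row_of_nv (nv_ly h)

end Cfsg.Agent.H62.HT
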